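import Cfsg.Agent.H846.RatB.Fixed
import Cfsg.Agent.Characters.MonomialVec
import Cfsg.Agent.Blocks.OrbitSum
import Cfsg.Agent.H627.Gow.Mackey_m3
import Cfsg.Agent.CharactersDeep.MaxInduced
import Cfsg.Agent.Characters.Linear
import Mathlib.FieldTheory.Finite.Extension
import Cfsg.Agent.H139.Cusp.Orth
import Cfsg.Agent.FastGrp
import Cfsg.Agent.Prune
set_option linter.all false
prune_inst 0x7f00000000000000000000000000000000000000000000000000000000000000000000000000000000000000000000000000000000000000000000000000000000000000000000000000000000000000003fffffffffffffffffffffffffffbeffbdffffffff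
open scoped Cfsg.Agent.FastGrp

-- part: H993/OC/Defs
section
/-!
# S4891, layer DEFINING CHARACTERISTIC: definitions (helper993)

* `Cong p a b` : `a ≡ b` modulo `p` in the algebraic integers;
* `L3 p S` : `S` has an irreducible character `θ ≠ 1` of degree prime to `p`, whose stabiliser `A` in `Aut S` has index
  prime to `p`, with a `p`-rational extension `ψ` to `A` and `ψ x ≡ ψ 1` for the `p`-regular elements `x` of `A` which
  centralize a Sylow `p`-subgroup of `A`.
* `cong_indFun` : this congruence for monomial characters with one fixed point.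
-/

set_option autoImplicit false

open Cfsg

namespace Cfsg.Agent.H993.OC

open Cfsg.Agent.H846.RatB Cfsg.Agent.Characters Cfsg.Agent.H53.HC Cfsg.Agent.OddOrderCharacters.Clifford

universe u

/-- congruence modulo `p` in the algebraic integers -/
def Cong (p : ℕ) (a b : ℂ) : Prop := ∃ z : ℂ, IsIntegral ℤ z ∧ a = b + p * z

theorem Cong.symm {p : ℕ} {a b : ℂ} (h : Cong p a b) : Cong p b a := by
  obtain ⟨z, hz, h⟩ := h
  exact ⟨-z, hz.neg, by rw [h]; ring⟩

theorem Cong.trans {p : ℕ} {a b c : ℂ} (h : Cong p a b) (h' : Cong p b c) : Cong p a c := by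
  obtain ⟨z, hz, h⟩ := h
  obtain ⟨z', hz', h'⟩ := h'
  exact ⟨z + z', hz.add hz', by rw [h, h']; ring⟩

theorem Cong.refl (p : ℕ) (a : ℂ) : Cong p a a := ⟨0, isIntegral_zero, by ring⟩

section cong

variable {G : Type u} [Group G]

end cong

end Cfsg.Agent.H993.OC
end

-- part: H993/OC/Root
section
/-!
# S4891, defining characteristic: the semilinear action on a root group (helper993)

`RootDat p S K` : a Sylow `p`-subgroup `U`, a subgroup `X = ξ(K) ≤ U` normalised by the automorphisms normalising `U`,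
`P = N_S(X)` acting on `X` by the scalars `μ : P → Kˣ` which generate `K`.

`RootDat.exists_sem` : every automorphism normalising `X` acts on `X` by `a ↦ m * σ a`.
-/

set_option autoImplicit false

open Cfsg

namespace Cfsg.Agent.H993.OC

universe u v

/-- a root group with its normaliser -/
structure RootDat (p : ℕ) [Fact p.Prime] (S : Type u) [Group S] (K : Type v) [Field K] where
  /-- a Sylow subgroup -/
  U : Sylow p S
  /-- the parametrisation of the root group -/
  ξ : K → S
  ξ_add : ∀ a b, ξ (a + b) = ξ a * ξ b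
  ξ_inj : Function.Injective ξ
  /-- the root group -/
  X : Subgroup S
  mem_X : ∀ s, s ∈ X ↔ ∃ a, ξ a = s
  X_le : X ≤ U
  hchar : ∀ α : MulAut S, (U : Subgroup S).map α.toMonoidHom = U → X.map α.toMonoidHom = X
  /-- its normaliser -/
  P : Subgroup S
  mem_P : ∀ g, g ∈ P ↔ X.map (MulAut.conj g).toMonoidHom = X
  /-- the scalars -/
  μ : P →* Kˣ
  hμ : ∀ (g : P) (a : K), (g : S) * ξ a * (g : S)⁻¹ = ξ (μ g * a)
  hgen : ∀ R : Subring K, (∀ g, (μ g : K) ∈ R) → R = ⊤

variable {p : ℕ} [Fact p.Prime] {S : Type u} [Group S] {K : Type v} [Field K] (D : RootDat p S K)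

namespace RootDat

/-- `α` acts on the root group by `a ↦ m * σ a` -/
def Sem (α : MulAut S) (m : Kˣ) (σ : K ≃+* K) : Prop := ∀ a, α (D.ξ a) = D.ξ (m * σ a)

variable {D}

theorem Sem.unique {α : MulAut S} {m m' : Kˣ} {σ σ' : K ≃+* K} (h : D.Sem α m σ) (h' : D.Sem α m' σ') :
    m = m' ∧ σ = σ' := by
  have h1 : m = m' := by
    have := D.ξ_inj ((h 1).symm.trans (h' 1))
    rw [map_one, map_one, mul_one, mul_one] at this
    exact Units.ext this
  refine ⟨h1, RingEquiv.ext fun a => ?_⟩
  have := D.ξ_inj ((h a).symm.trans (h' a))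
  rw [h1] at this
  exact mul_left_cancel₀ m'.ne_zero this

theorem Sem.mul {α β : MulAut S} {m n : Kˣ} {σ τ : K ≃+* K} (h : D.Sem α m σ) (h' : D.Sem β n τ) :
    D.Sem (α * β) (m * Units.map (σ : K →* K) n) (σ * τ) := by
  intro a
  rw [MulAut.mul_apply, h', h, map_mul, Units.val_mul, Units.coe_map, mul_assoc]
  rfl

theorem Sem.one : D.Sem 1 1 1 := fun a => by
  rw [MulAut.one_apply, Units.val_one, one_mul]
  rfl

end RootDat

end Cfsg.Agent.H993.OC
end

-- part: H993/OC/Abs
section
/-!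
# S4891, defining characteristic: the abstract theorem (helper993)

`RootDat.l3` : `θ = Ind_P^S (c ∘ μ)` irreducible and different from its field conjugates gives `L3 p S`.
-/

set_option autoImplicit false

open Cfsg

namespace Cfsg.Agent.H993.OC

open Cfsg.Agent.H846.RatB Cfsg.Agent.Characters Cfsg.Agent.H53.HC Cfsg.Agent.OddOrderCharacters.Clifford

universe u v

section gen

/-- induction and restriction along a homomorphism onto a supplement -/
theorem indFun_hom {S A : Type*} [Group S] [Group A] [Fintype S] [Fintype A] (ι : S →* A) (H : Subgroup A)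
    (P : Subgroup S) (hP : ∀ s, s ∈ P ↔ ι s ∈ H) (hcov : ∀ a, ∃ s, ∃ h ∈ H, a = ι s * h) (θ : H → ℂ)
    (hcl : ∀ h k : H, θ (h * k * h⁻¹) = θ k) (θ' : P → ℂ) (hθ' : ∀ g : P, θ' g = θ ⟨ι g, (hP g).1 g.2⟩) (s : S) :
    indFun H θ (ι s) = indFun P θ' s := by
  classical
  let _ : Fintype (A ⧸ H) := Fintype.ofFinite _
  let _ : Fintype (S ⧸ P) := Fintype.ofFinite _
  have hcl' : ∀ h k : P, θ' (h * k * h⁻¹) = θ' k := fun h k => by
    rw [hθ', hθ', ← hcl ⟨ι h, (hP h).1 h.2⟩ ⟨ι k, (hP k).1 k.2⟩]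
    congr 1
    apply Subtype.ext
    change ι ((h : S) * k * (h : S)⁻¹) = ι h * ι k * (ι h)⁻¹
    rw [map_mul, map_mul, map_inv]
  rw [MonomialVec.indFun_eq_sum_quotient H θ hcl, MonomialVec.indFun_eq_sum_quotient P θ' hcl']
  have hcf : IsClassFunction H θ := fun g h => hcl h g
  have hcf' : IsClassFunction P θ' := fun g h => hcl' h g
  have hval : ∀ (y a : A), extendByZero H θ ((QuotientGroup.mk y : A ⧸ H).out⁻¹ * a *
      (QuotientGroup.mk y : A ⧸ H).out) = extendByZero H θ (y⁻¹ * a * y) := by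
    intro y a
    obtain ⟨h, hh⟩ := QuotientGroup.mk_out_eq_mul H y
    rw [hh]
    have : (y * (h : A))⁻¹ * a * (y * h) = (h : A)⁻¹ * (y⁻¹ * a * y) * h := by group
    rw [this]
    exact ext_conj hcf h.2 _
  let f : S ⧸ P → A ⧸ H := Quotient.map' ι (by
    intro a b h
    rw [QuotientGroup.leftRel_apply] at h ⊢
    rw [← map_inv, ← map_mul]
    exact (hP _).1 h)
  have hf : ∀ t : S, f (QuotientGroup.mk t) = QuotientGroup.mk (ι t) := fun t => rfl
  have hbij : Function.Bijective f := by
    constructor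
    · intro a b h
      obtain ⟨a, rfl⟩ := QuotientGroup.mk_surjective a
      obtain ⟨b, rfl⟩ := QuotientGroup.mk_surjective b
      rw [hf, hf, QuotientGroup.eq, ← map_inv, ← map_mul] at h
      rw [QuotientGroup.eq]
      exact (hP _).2 h
    · intro a
      obtain ⟨a, rfl⟩ := QuotientGroup.mk_surjective a
      obtain ⟨t, h, hh, rfl⟩ := hcov a
      refine ⟨QuotientGroup.mk t, ?_⟩
      rw [hf, QuotientGroup.eq, inv_mul_cancel_left]
      exact hh
  rw [← (Equiv.ofBijective f hbij).sum_comp]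
  refine Finset.sum_congr rfl fun ω _ => ?_
  obtain ⟨h, hh⟩ : ∃ t : S, ω = QuotientGroup.mk t := by
    obtain ⟨t, rfl⟩ := QuotientGroup.mk_surjective ω
    exact ⟨t, rfl⟩
  have e1 : (Equiv.ofBijective f hbij ω) = QuotientGroup.mk (ι ω.out) := by
    change f ω = _
    conv_lhs => rw [← QuotientGroup.out_eq' ω]
    rfl
  rw [e1, hval, ← map_inv, ← map_mul, ← map_mul]
  by_cases hz : ω.out⁻¹ * s * ω.out ∈ P
  · rw [ext_apply_mem _ _ _ hz, ext_apply_mem _ _ _ ((hP _).1 hz), hθ']
  · rw [ext_apply_not_mem _ _ _ hz, ext_apply_not_mem _ _ _ (fun h => hz ((hP _).2 h))]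

theorem indFun_one' {G : Type*} [Group G] [Fintype G] (H : Subgroup G) (lam : H →* ℂˣ) :
    indFun H (fun h => (lam h : ℂ)) 1 = (H.index : ℂ) := by
  classical
  unfold indFun
  have h1 : ∀ x : G, extendByZero H (fun h => (lam h : ℂ)) (x⁻¹ * 1 * x) = 1 := by
    intro x
    rw [mul_one, inv_mul_cancel, ext_apply_mem _ _ _ (one_mem H)]
    change ((lam 1 : ℂˣ) : ℂ) = 1
    rw [map_one, Units.val_one]
  rw [Finset.sum_congr rfl fun x _ => h1 x, Finset.sum_const, Finset.card_univ, nsmul_eq_mul, mul_one,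
    ← Nat.card_eq_fintype_card, ← Subgroup.card_mul_index H]
  push_cast
  rw [inv_mul_cancel_left₀]
  exact_mod_cast (Nat.card_pos (α := H)).ne'

/-- the values of a monomial character -/
theorem indFun_mem {G : Type*} [Group G] [Fintype G] (H : Subgroup G) (lam : H →* ℂˣ) {n : ℕ} (hn : n ≠ 0)
    (h : ∀ x, lam x ^ n = 1) (g : G) : indFun H (fun h => (lam h : ℂ)) g ∈
      IntermediateField.adjoin ℚ ({Complex.exp (2 * Real.pi * Complex.I / n)} : Set ℂ) := by
  classical
  set E := IntermediateField.adjoin ℚ ({Complex.exp (2 * Real.pi * Complex.I / n)} : Set ℂ) with hE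
  have hζ : Complex.exp (2 * Real.pi * Complex.I / n) ∈ E := IntermediateField.mem_adjoin_simple_self ℚ _
  have hprim := Complex.isPrimitiveRoot_exp n hn
  unfold indFun
  refine E.mul_mem (E.inv_mem (natCast_mem E _)) (E.sum_mem fun x _ => ?_)
  by_cases hz : x⁻¹ * g * x ∈ H
  · rw [ext_apply_mem _ _ _ hz]
    have h1 : ((lam ⟨_, hz⟩ : ℂˣ) : ℂ) ^ n = 1 := by
      rw [← Units.val_pow_eq_pow_val, h, Units.val_one]
    have : NeZero n := ⟨hn⟩
    obtain ⟨i, -, hi⟩ := hprim.eq_pow_of_pow_eq_one h1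
    rw [← hi]
    exact pow_mem hζ i
  · rw [ext_apply_not_mem _ _ _ hz]
    exact E.zero_mem

end gen

variable {p : ℕ} [Fact p.Prime] {S : Type u} [Group S] {K : Type v} [Field K]

namespace RootDat

variable (D : RootDat p S K)

variable {D}

theorem Sem.pow {α : MulAut S} {m : Kˣ} {σ : K ≃+* K} (h : D.Sem α m σ) (n : ℕ) : ∃ m', D.Sem (α ^ n) m' (σ ^ n) := by
  induction n with
  | zero => exact ⟨1, by rw [pow_zero, pow_zero]; exact Sem.one⟩
  | succ n ih =>
    obtain ⟨m', hm'⟩ := ih
    exact ⟨_, by rw [pow_succ, pow_succ]; exact hm'.mul h⟩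

end RootDat

end Cfsg.Agent.H993.OC
end

-- part: H993/OC/Field
section
/-!
# S4891, defining characteristic: field automorphisms of `p`-power order (helper993)

* `exists_char` : `|K| = p ^ (f₀ p ^ k)`, `r ∣ p ^ f₀ - 1`: a linear character of `Kˣ` of order `r`, fixed by the field
  automorphisms of `p`-power order;
* `frob_pow` : these automorphisms are `x ↦ x ^ p ^ (f₀ i)`; for every `τ` the automorphism `τ ^ f₀` is of this form.
-/

set_option autoImplicit false

open Cfsg

namespace Cfsg.Agent.H993.OC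

universe v

variable {K : Type v} [Field K] [Finite K] {p : ℕ} [Fact p.Prime] [CharP K p]

theorem exists_frob (τ : K ≃+* K) : ∃ n : ℕ, ∀ x : K, τ x = x ^ p ^ n := by
  classical
  have := Fintype.ofFinite K
  let _ : Algebra (ZMod p) K := ZMod.algebra K p
  let σ : K ≃ₐ[ZMod p] K := AlgEquiv.ofRingEquiv (f := τ) (fun x => by
    have : (τ : K →+* K).comp (algebraMap (ZMod p) K) = algebraMap (ZMod p) K := Subsingleton.elim _ _
    exact RingHom.congr_fun this x)
  obtain ⟨n, hn⟩ := (FiniteField.bijective_frobeniusAlgEquivOfAlgebraic_pow (ZMod p) K).2 σ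
  refine ⟨n, fun x => ?_⟩
  have h1 : τ x = σ x := rfl
  rw [h1, ← hn]
  change (FiniteField.frobeniusAlgEquivOfAlgebraic (ZMod p) K ^ (n : ℕ)) x = _
  rw [AlgEquiv.coe_pow, FiniteField.coe_frobeniusAlgEquivOfAlgebraic_iterate, ZMod.card]

omit [Finite K] [Fact p.Prime] [CharP K p] in
theorem frob_iter {τ : K ≃+* K} {n : ℕ} (h : ∀ x : K, τ x = x ^ p ^ n) (m : ℕ) (x : K) : (τ ^ m) x = x ^ p ^ (n * m) := by
  induction m with
  | zero => rw [pow_zero, Nat.mul_zero, pow_zero, pow_one]; rfl
  | succ m ih =>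
    rw [pow_succ']
    change τ ((τ ^ m) x) = _
    rw [ih, h, ← pow_mul, ← pow_add, Nat.mul_succ]

/-- `τ ^ f₀` is a power of `x ↦ x ^ p ^ f₀` -/
theorem frob_pow (f₀ : ℕ) (τ : K ≃+* K) : ∃ i : ℕ, ∀ x : K, (τ ^ f₀) x = x ^ p ^ (f₀ * i) := by
  obtain ⟨n, hn⟩ := exists_frob (p := p) τ
  exact ⟨n, fun x => by rw [frob_iter hn, Nat.mul_comm]⟩

end Cfsg.Agent.H993.OC
end
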